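import Groth.Agent.Htor.H240.KunnFilt

/-!
# Consequences of the Künneth filtration: vanishing; the case of flat cohomology
-/

set_option autoImplicit false

universe u

open CategoryTheory CategoryTheory.Limits MonoidalCategory HomologicalComplex DirectSum

namespace Groth.Agent.Htor.H240.KunnCor

open KunnEl KunnMap DSum KunnFlat KunnStep KunnFilt Groth.Agent.CycA.TorShift

variable {A : Type u} [CommRing A]

lemma subsingleton_of_isSubquotient {N T : Type u} [AddCommGroup N] [Module A N] [AddCommGroup T]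
    [Module A T] [Subsingleton T] (h : HTor.IsSubquotient A N T) : Subsingleton N := by
  obtain ⟨S', f, hf⟩ := exists_surjective h
  exact hf.subsingleton

/-- If all the relevant `Tor_{p+1}(H^i(L), H^j(M))` vanish, the Künneth map is surjective. -/
theorem Φ_surjective_of_tor (L M : DRing.Cx A) (hL : DRing.TermwiseFlat L)
    (bL : ∃ b : ℤ, DRing.VanishesAbove L b) (bM : ∃ b : ℤ, DRing.VanishesAbove M b) (n : ℤ)
    (h : ∀ (p : ℕ) (i j : ℤ), i + j - ((p + 1 : ℕ) : ℤ) = n →
      Subsingleton (DRing.Tor A (p + 1) (L.homology i) (M.homology j))) :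
    Function.Surjective (Φ L M n) := by
  obtain ⟨N, F, Ψ, hΨ, h0, h1, h2, h3⟩ := exists_filtration L M hL bL bM n
  have hs : ∀ p, F (p + 1) ≤ F p := by
    intro p
    have : Subsingleton (HTor.TorSum L M n (p + 1)) :=
      ⟨fun x y => DFinsupp.ext fun ij => (h p ij.1.1 ij.1.2 ij.2).elim _ _⟩
    have h4 : Subsingleton (HTor.grSucc F p) := subsingleton_of_isSubquotient (h3 p)
    intro x hx
    have h5 : Submodule.Quotient.mk (p := Submodule.comap (F (p + 1)).subtype (F p)) ⟨x, hx⟩ = 0 :=
      h4.elim _ _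
    rw [Submodule.Quotient.mk_eq_zero] at h5
    exact h5
  have h6 : ∀ k, F k ≤ F 0 := by
    intro k
    induction k with
    | zero => exact le_refl _
    | succ k ih => exact (hs k).trans ih
  rw [← LinearMap.range_eq_top, ← eq_Φ_of_isKunnethMap L M n Ψ hΨ, ← h0, eq_top_iff, ← h2]
  exact h6 N

/-- Vanishing of hypertor. -/
theorem isZero_homology (L M : DRing.Cx A) (hL : DRing.TermwiseFlat L)
    (bL : ∃ b : ℤ, DRing.VanishesAbove L b) (bM : ∃ b : ℤ, DRing.VanishesAbove M b) (n : ℤ)
    (h : ∀ (p : ℕ) (i j : ℤ), i + j - p = n →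
      Subsingleton (DRing.Tor A p (L.homology i) (M.homology j))) :
    IsZero ((HTor.tensorCx L M).homology n) := by
  have h1 := Φ_surjective_of_tor L M hL bL bM n (fun p i j hij => h (p + 1) i j hij)
  have h2 : Subsingleton (HTor.KunnethSum L M n) := ⟨fun x y => DFinsupp.ext fun ij => by
    have := h 0 ij.1.1 ij.1.2 (by simpa using ij.2)
    exact (zeroEquiv A (L.homology ij.1.1) (M.homology ij.1.2)).symm.injective (Subsingleton.elim _ _)⟩
  have h3 : Subsingleton ((HTor.tensorCx L M).homology n) := h1.subsingleton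
  exact ModuleCat.isZero_of_subsingleton _

/-- The Künneth map is bijective if the cohomology of `L` is flat. -/
theorem Φ_bijective_of_flat_homology (L M : DRing.Cx A) (hL : DRing.TermwiseFlat L)
    (bL : ∃ b : ℤ, DRing.VanishesAbove L b) (bM : ∃ b : ℤ, DRing.VanishesAbove M b)
    (hH : ∀ i : ℤ, Module.Flat A (L.homology i)) (n : ℤ) : Function.Bijective (Φ L M n) := by
  have hsurj : ∀ (M : DRing.Cx A) (_ : ∃ b : ℤ, DRing.VanishesAbove M b),
      Function.Surjective (Φ L M n) := fun M bM =>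
    Φ_surjective_of_tor L M hL bL bM n (fun p i j _ => by
      have := hH i
      exact subsingleton_of_flat_left A p (L.homology i) (M.homology j))
  refine ⟨?_, hsurj M bM⟩
  obtain ⟨a, bL⟩ := bL
  obtain ⟨b, bM⟩ := bM
  obtain ⟨M', P, i, p, hM', hP, hi, hex, hp, hΦ, hδ⟩ := exists_step L hL bL M bM
  obtain ⟨δ, h1, h2, h3⟩ := hδ n
  rw [injective_iff_map_eq_zero]
  intro x hx
  have hs : Function.Surjective (sumMap L p n) :=
    lmap_surjective _ fun ij => LinearMap.lTensor_surjective _ (hp ij.1.2)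
  have hs' : Function.Exact (sumMap L i n) (sumMap L p n) :=
    exact_lmap _ _ fun ij => lTensor_exact _ (hex ij.1.2) (hp ij.1.2)
  obtain ⟨y, rfl⟩ := hs x
  rw [← homologyMap_Φ] at hx
  obtain ⟨w, hw⟩ := (h3 _).1 hx
  obtain ⟨z, rfl⟩ := hsurj M' ⟨b, hM'⟩ w
  rw [homologyMap_Φ] at hw
  have := (hΦ n).1 hw
  rw [← this]
  exact (hs' _).2 ⟨z, rfl⟩

end Groth.Agent.Htor.H240.KunnCor
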